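import Cfsg.Agent.H999.IF.EngB

/-!
# S5719, classical groups: the inequality (E2) in a covering group (helper847)

`lift_E2` : `pi : G → T` surjective, `T` simple, `pi t ∈ A` an involution, `B ≤ G` commutes with `t` modulo the kernel:
`|B : B ∩ pi⁻¹ A| ^ 5 < |G : C_G(t)|`.
-/

set_option autoImplicit false

namespace Cfsg.Agent.H847.IF

open Subgroup Cfsg.Agent.H209.Fxy

/-- **(E2) in a covering group** -/
theorem lift_E2 {G T : Type*} [Group G] [Finite G] [Group T] [Finite T] [IsSimpleGroup T] {A : Subgroup T}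
    {Γ : Subgroup (MulAut T)} (h : IF A Γ) (hna : ∃ a b : T, a * b ≠ b * a) (pi : G →* T)
    (hpi : Function.Surjective pi) {t : G} (ht : pi t ∈ A) (ht1 : pi t ≠ 1) (ht2 : pi (t * t) = 1) {B : Subgroup G}
    (hB : ∀ b ∈ B, pi (b * t) = pi (t * b)) :
    (A.comap pi).relIndex B ^ 5 < (centralizer ({t} : Set G)).index := by
  have ho : orderOf (pi t) = 2 := by
    apply orderOf_eq_prime _ ht1
    rw [pow_two, ← map_mul, ht2]
  obtain ⟨-, -, -, -, h5⟩ := Cfsg.Agent.H999.IFB.IF.E2' h hna ht ho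
  have h6 := (h5 (B.map pi) (by
    rintro _ ⟨b, hb, rfl⟩
    rw [mem_centralizer_iff]
    rintro _ rfl
    have := hB b hb
    rw [map_mul, map_mul] at this
    exact this.symm)).1
  rw [relIndex_comap]
  refine lt_of_lt_of_le h6 ?_
  rw [← index_comap_of_surjective _ hpi]
  refine Nat.le_of_dvd (Nat.pos_of_ne_zero index_ne_zero_of_finite) (index_dvd_of_le ?_)
  intro x hx
  rw [mem_centralizer_iff] at hx
  rw [mem_comap, mem_centralizer_iff]
  rintro _ rfl
  rw [← map_mul, hx t rfl, map_mul]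

/-- the same with the order of the centraliser: `|B : B ∩ pi⁻¹ A| ^ 5 · |C_G(t)| < |G|` -/
theorem lift_E2_card {G T : Type*} [Group G] [Finite G] [Group T] [Finite T] [IsSimpleGroup T] {A : Subgroup T}
    {Γ : Subgroup (MulAut T)} (h : IF A Γ) (hna : ∃ a b : T, a * b ≠ b * a) (pi : G →* T)
    (hpi : Function.Surjective pi) {t : G} (ht : pi t ∈ A) (ht1 : pi t ≠ 1) (ht2 : pi (t * t) = 1) {B : Subgroup G}
    (hB : ∀ b ∈ B, pi (b * t) = pi (t * b)) :
    (A.comap pi).relIndex B ^ 5 * Nat.card (centralizer ({t} : Set G)) < Nat.card G := by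
  have h1 := lift_E2 h hna pi hpi ht ht1 ht2 hB
  rw [← index_mul_card (centralizer ({t} : Set G))]
  exact Nat.mul_lt_mul_of_pos_right h1 Nat.card_pos

end Cfsg.Agent.H847.IF
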