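import Cfsg.Agent.H450.UF.Count
import Cfsg.Agent.S0277

/-!
# S5719, unitary groups: the class of the involution `x ↦ x + ∑ B (u i) x • u i` (helper847)

`class_le` : `|SU(V) : C(t)| * q ^ k ≤ (q + 1) ^ k * q ^ (2 k (n - k))`.
-/

set_option autoImplicit false
set_option linter.unusedSectionVars false

namespace Cfsg.Agent.H847.IF

open Module Cfsg.Agent.H91.U Cfsg.Agent.H450.UF
open Cfsg.Agent.H950 (isoNum)

/-! ### numbers -/

theorem isoNum_le {q : ℕ} (hq : 2 ≤ q) {N : ℕ} (hN : 1 ≤ N) :
    isoNum q N * q ^ 2 ≤ (q + 1) * q ^ (2 * N) := by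
  obtain ⟨M, rfl⟩ : ∃ M, N = M + 1 := ⟨N - 1, by omega⟩
  have hx : 1 ≤ q ^ M := Nat.one_le_pow _ _ (by omega)
  unfold isoNum
  split_ifs with h
  · have hM : 1 ≤ M := by
      rcases Nat.eq_zero_or_pos M with rfl | h0
      · exact absurd h (by decide)
      · exact h0
    have hxq : q ≤ q ^ M := by
      calc q = q ^ 1 := (pow_one q).symm
        _ ≤ q ^ M := Nat.pow_le_pow_right (by omega) hM
    rw [Nat.add_sub_cancel]
    calc (q ^ (M + 1) - 1) * (q ^ M + 1) * q ^ 2 ≤ q ^ (M + 1) * (q ^ M + 1) * q ^ 2 := by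
          gcongr
          exact Nat.sub_le _ _
      _ = q ^ M * q ^ M * q ^ 3 + q ^ M * q ^ 2 * q := by ring
      _ ≤ q ^ M * q ^ M * q ^ 3 + q ^ M * q ^ 2 * q ^ M := by gcongr
      _ = (q + 1) * q ^ (2 * (M + 1)) := by ring
  · rw [Nat.add_sub_cancel]
    have h1 : (q ^ (M + 1) + 1) * (q ^ M - 1) ≤ q ^ M * q ^ (M + 1) := by
      obtain ⟨y, hy⟩ : ∃ y, q ^ M = y + 1 := ⟨q ^ M - 1, by omega⟩
      rw [pow_succ, hy, Nat.add_sub_cancel]
      nlinarith
    calc (q ^ (M + 1) + 1) * (q ^ M - 1) * q ^ 2 ≤ q ^ M * q ^ (M + 1) * q ^ 2 := by gcongr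
      _ = q * q ^ (2 * (M + 1)) := by ring
      _ ≤ (q + 1) * q ^ (2 * (M + 1)) := by gcongr; omega

theorem prod_even {q : ℕ} (hq : 2 ≤ q) (j : ℕ) :
    q ^ (j * (2 * j + 1)) ≤ ∏ i ∈ Finset.range (2 * j), (if Even i then q ^ (i + 1) + 1 else q ^ (i + 1) - 1) := by
  induction j with
  | zero => simp
  | succ j ih =>
    rw [show 2 * (j + 1) = 2 * j + 1 + 1 by ring, Finset.prod_range_succ, Finset.prod_range_succ,
      if_pos (even_two_mul j), if_neg (by simp)]
    have h1 : q ^ (4 * j + 3) ≤ (q ^ (2 * j + 1) + 1) * (q ^ (2 * j + 1 + 1) - 1) := by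
      obtain ⟨y, hy⟩ : ∃ y, q ^ (2 * j + 1 + 1) = y + 1 :=
        ⟨q ^ (2 * j + 1 + 1) - 1, by have : 1 ≤ q ^ (2 * j + 1 + 1) := Nat.one_le_pow _ _ (by omega); omega⟩
      rw [hy, Nat.add_sub_cancel]
      have h2 : q ^ (4 * j + 3) = q ^ (2 * j + 1) * (y + 1) := by rw [← hy]; ring
      have h3 : 2 * q ^ (2 * j + 1) ≤ y + 1 := by
        rw [← hy, pow_succ q (2 * j + 1), mul_comm]
        gcongr
      have h4 : 1 ≤ q ^ (2 * j + 1) := Nat.one_le_pow _ _ (by omega)
      rw [h2]
      nlinarith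
    calc q ^ ((j + 1) * (2 * j + 1 + 1 + 1)) = q ^ (j * (2 * j + 1)) * q ^ (4 * j + 3) := by rw [← pow_add]; congr 1; ring
      _ ≤ _ := by rw [mul_assoc]; exact Nat.mul_le_mul ih h1

theorem le_card_GU {F : Type*} [Field F] [Fintype F] {q : ℕ} (hF : Fintype.card F = q ^ 2) (k : ℕ) :
    q ^ (k * k) ≤ Nat.card (Cfsg.GU k F q) := by
  have hq : 2 ≤ q := Cfsg.Agent.LieClassical.GUOrder.two_le hF
  rw [Cfsg.Agent.S0277.result hF k]
  rcases Nat.even_or_odd' k with ⟨j, rfl | rfl⟩
  · have h1 : 2 * j * (2 * j - 1) / 2 = j * (2 * j - 1) := by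
      rw [mul_assoc, Nat.mul_div_cancel_left _ (by norm_num)]
    rw [h1]
    calc q ^ (2 * j * (2 * j)) = q ^ (j * (2 * j - 1)) * q ^ (j * (2 * j + 1)) := by
          rw [← pow_add]
          congr 1
          rcases Nat.eq_zero_or_pos j with rfl | hj
          · rfl
          · obtain ⟨i, rfl⟩ : ∃ i, j = i + 1 := ⟨j - 1, by omega⟩
            rw [show 2 * (i + 1) - 1 = 2 * i + 1 by omega]
            ring
      _ ≤ _ := Nat.mul_le_mul le_rfl (prod_even hq j)
  · have h1 : (2 * j + 1) * (2 * j + 1 - 1) / 2 = j * (2 * j + 1) := by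
      rw [Nat.add_sub_cancel, mul_comm (2 * j + 1) (2 * j), mul_assoc, Nat.mul_div_cancel_left _ (by norm_num)]
    rw [h1, Finset.prod_range_succ, if_pos (even_two_mul j)]
    calc q ^ ((2 * j + 1) * (2 * j + 1)) = q ^ (j * (2 * j + 1)) * (q ^ (j * (2 * j + 1)) * q ^ (2 * j + 1)) := by
          rw [← pow_add, ← pow_add]
          congr 1
          ring
      _ ≤ _ := Nat.mul_le_mul le_rfl (Nat.mul_le_mul (prod_even hq j) (Nat.le_succ _))

/-! ### frames -/

variable {F V : Type*} [Field F] [AddCommGroup V] [Module F V] {σ : F →+* F} {B : V →ₛₗ[σ] V →ₗ[F] F}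

variable (B) in
/-- the number of totally isotropic frames of length `k` -/
noncomputable def fr (k : ℕ) : ℕ := Nat.card {u : Fin k → V // Frame B u}

theorem fr_succ_le [Fintype F] [FiniteDimensional F V] {q : ℕ} (hF : Fintype.card F = q ^ 2) (hB : HForm B) (k : ℕ) :
    fr B (k + 1) ≤ fr B k * ((q ^ 2) ^ k * isoNum q (finrank F V - 2 * k)) := by
  classical
  have : Finite V := Module.finite_of_finite F
  have hinit : ∀ u : Fin (k + 1) → V, Frame B u → Frame B (Fin.init u) := fun u hu =>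
    ⟨(linearIndependent_finSucc'.1 hu.li).1, fun i l => hu.ti _ _⟩
  let X : {u : Fin k → V // Frame B u} → Type _ := fun u =>
    {v : V // v ∉ Submodule.span F (Set.range u.1) ∧ v ∈ perp B (Submodule.span F (Set.range u.1)) ∧ B v v = 0}
  let Φ : {u : Fin (k + 1) → V // Frame B u} → Σ u : {u : Fin k → V // Frame B u}, X u := fun u =>
    ⟨⟨Fin.init u.1, hinit u.1 u.2⟩, ⟨u.1 (Fin.last k), (linearIndependent_finSucc'.1 u.2.li).2, by
      intro z hz
      induction hz using Submodule.span_induction with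
      | mem z hz => obtain ⟨i, rfl⟩ := hz; exact u.2.ti _ _
      | zero => rw [map_zero]
      | add y z _ _ h1 h2 => rw [map_add, h1, h2, add_zero]
      | smul c y _ h => rw [smul_right', h, mul_zero], u.2.ti _ _⟩⟩
  have hΦ : Function.Injective Φ := by
    intro u u' h
    apply Subtype.ext
    have h1 : Fin.init u.1 = Fin.init u'.1 := congrArg (fun s : Σ u : {u : Fin k → V // Frame B u}, X u => s.1.1) h
    have h2 : u.1 (Fin.last k) = u'.1 (Fin.last k) :=
      congrArg (fun s : Σ u : {u : Fin k → V // Frame B u}, X u => s.2.1) h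
    rw [← Fin.snoc_init_self u.1, ← Fin.snoc_init_self u'.1, h1, h2]
  have := Fintype.ofFinite {u : Fin k → V // Frame B u}
  have hcard : ∀ u, Nat.card (X u) = (q ^ 2) ^ k * isoNum q (finrank F V - 2 * k) := by
    intro u
    have h1 : finrank F (Submodule.span F (Set.range u.1)) = k := by
      rw [finrank_span_eq_card u.2.li, Fintype.card_fin]
    have h2 := card_iso_perp hF hB (C := Submodule.span F (Set.range u.1)) (Frame.span_ti u.2)
    rw [h1] at h2
    exact h2
  calc fr B (k + 1) ≤ Nat.card (Σ u : {u : Fin k → V // Frame B u}, X u) := Nat.card_le_card_of_injective Φ hΦ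
    _ = ∑ u : {u : Fin k → V // Frame B u}, Nat.card (X u) := Nat.card_sigma
    _ = fr B k * ((q ^ 2) ^ k * isoNum q (finrank F V - 2 * k)) := by
        rw [Finset.sum_congr rfl fun u _ => hcard u, Finset.sum_const, Finset.card_univ, smul_eq_mul, fr,
          Nat.card_eq_fintype_card]

theorem fr_le [Fintype F] [FiniteDimensional F V] {q : ℕ} (hF : Fintype.card F = q ^ 2) (hB : HForm B) (k : ℕ) :
    fr B k * q ^ (k * k + k) ≤ (q + 1) ^ k * q ^ (2 * (finrank F V) * k) := by
  have hq : 2 ≤ q := Cfsg.Agent.LieClassical.GUOrder.two_le hF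
  induction k with
  | zero =>
    have h1 : fr B 0 ≤ 1 := by
      rw [fr]
      have : Subsingleton {u : Fin 0 → V // Frame B u} := ⟨fun a b => Subtype.ext (Subsingleton.elim _ _)⟩
      exact Finite.card_le_one_iff_subsingleton.2 this
    simpa using h1
  | succ k ih =>
    set n := finrank F V with hn
    rcases Nat.lt_or_ge (2 * k) n with h | h
    · have h1 := isoNum_le hq (N := n - 2 * k) (by omega)
      calc fr B (k + 1) * q ^ ((k + 1) * (k + 1) + (k + 1))
          ≤ fr B k * ((q ^ 2) ^ k * isoNum q (n - 2 * k)) * q ^ ((k + 1) * (k + 1) + (k + 1)) := by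
            gcongr
            exact fr_succ_le hF hB k
        _ = (fr B k * q ^ (k * k + k)) * ((isoNum q (n - 2 * k) * q ^ 2) * q ^ (4 * k)) := by ring
        _ ≤ ((q + 1) ^ k * q ^ (2 * n * k)) * (((q + 1) * q ^ (2 * (n - 2 * k))) * q ^ (4 * k)) := by gcongr
        _ = (q + 1) ^ (k + 1) * q ^ (2 * n * k + (2 * (n - 2 * k) + 4 * k)) := by ring
        _ = (q + 1) ^ (k + 1) * q ^ (2 * n * (k + 1)) := by
            congr 2
            have : 2 * (n - 2 * k) + 4 * k = 2 * n := by omega
            rw [this]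
            ring
    · have h1 : fr B (k + 1) ≤ 0 := by
        refine (fr_succ_le hF hB k).trans ?_
        rw [← hn, show n - 2 * k = 0 by omega]
        simp [isoNum]
      rw [Nat.le_zero.1 h1, zero_mul]
      exact Nat.zero_le _

/-! ### the class -/

theorem GU_rel {F : Type*} [Field F] [Fintype F] {q : ℕ} (hF : Fintype.card F = q ^ 2) {k : ℕ} {σ : F →+* F}
    (hσ : ∀ x, σ x = x ^ q) (a : Cfsg.GU k F q) (i l : Fin k) :
    ∑ j, ((a : GL (Fin k) F) : Matrix (Fin k) (Fin k) F) l j * σ (((a : GL (Fin k) F) : Matrix (Fin k) (Fin k) F) i j) =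
      if i = l then 1 else 0 := by
  classical
  set A : Matrix (Fin k) (Fin k) F := ((a : GL (Fin k) F) : Matrix (Fin k) (Fin k) F) with hA
  have h1 : A.transpose * A.map σ = 1 := by
    ext c d
    have h2 := (Cfsg.Agent.LieClassical.GUOrder.mem_GU_iff _).1 a.2 (Pi.single c 1) (Pi.single d 1)
    rw [Matrix.mulVec_single_one, Matrix.mulVec_single_one, Cfsg.Agent.LieClassical.GUOrder.herm_def,
      Cfsg.Agent.LieClassical.GUOrder.herm_def] at h2
    rw [Matrix.mul_apply, Matrix.one_apply]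
    have hq0 : q ≠ 0 := by have := Cfsg.Agent.LieClassical.GUOrder.two_le hF; omega
    have h3 : ∑ i, (Pi.single c (1 : F) : Fin k → F) i * (Pi.single d (1 : F) : Fin k → F) i ^ q = if c = d then 1 else 0 := by
      rw [Finset.sum_eq_single c]
      · rw [Pi.single_eq_same, one_mul, Pi.single_apply]
        split_ifs <;> simp [hq0]
      · intro b _ hb
        rw [Pi.single_eq_of_ne hb, zero_mul]
      · intro h
        exact absurd (Finset.mem_univ _) h
    rw [h3] at h2
    rw [← h2]
    refine Finset.sum_congr rfl fun i _ => ?_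
    rw [Matrix.transpose_apply, Matrix.map_apply, hσ]
    rfl
  have h2 : A.map σ * A.transpose = 1 := mul_eq_one_comm.1 h1
  have h3 := congrFun (congrFun h2 i) l
  rw [Matrix.mul_apply, Matrix.one_apply] at h3
  rw [← h3]
  refine Finset.sum_congr rfl fun j _ => ?_
  rw [Matrix.map_apply, Matrix.transpose_apply, mul_comm]

/-- **the class of the involution of a frame** -/
theorem class_le [Fintype F] [FiniteDimensional F V] {q : ℕ} (hF : Fintype.card F = q ^ 2) (hB : HForm B)
    (h2 : (2 : F) = 0) {k : ℕ} {u : Fin k → V} (hu : Frame B u) {t : SIso B}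
    (ht : ∀ x, t.1 x = x + ∑ i, B (u i) x • u i) :
    (Subgroup.centralizer ({t} : Set (SIso B))).index * q ^ k ≤ (q + 1) ^ k * q ^ (2 * k * (finrank F V - k)) := by
  classical
  have : Finite V := Module.finite_of_finite F
  have hfin : Finite (V ≃ₗ[F] V) := Finite.of_injective (fun g : V ≃ₗ[F] V => (g : V → V)) DFunLike.coe_injective
  have hq : 2 ≤ q := Cfsg.Agent.LieClassical.GUOrder.two_le hF
  have hσ : ∀ x, σ x = x ^ q := sig_eq hF hB.ne_id hB.invol
  set C := Subgroup.centralizer ({t} : Set (SIso B)) with hC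
  -- the conjugates
  have hconj : ∀ (g : SIso B) (x : V), (g * t * g⁻¹).1 x = x + ∑ i, B (g.1 (u i)) x • g.1 (u i) := by
    intro g x
    have h1 : (g * t * g⁻¹).1 x = g.1 (t.1 (g.1⁻¹ x)) := rfl
    have hgg : g.1 (g.1⁻¹ x) = x := g.1.apply_symm_apply x
    rw [h1, ht, map_add, map_sum, hgg]
    congr 1
    refine Finset.sum_congr rfl fun i _ => ?_
    rw [map_smul]
    congr 1
    have h3 := g.2.2 (u i) (g.1⁻¹ x)
    rw [hgg] at h3
    exact h3.symm
  let w : (SIso B ⧸ C) × Cfsg.GU k F q → (Fin k → V) := fun p j =>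
    ∑ i, ((p.2 : GL (Fin k) F) : Matrix (Fin k) (Fin k) F) i j • (p.1.out).1 (u i)
  have hli : ∀ c : SIso B ⧸ C, LinearIndependent F (fun i => (c.out).1 (u i)) := fun c => (Frame.map hu (c.out).2).li
  have hw : ∀ p, Frame B (w p) := by
    intro p
    refine ⟨?_, fun i l => ?_⟩
    · rw [Fintype.linearIndependent_iff]
      intro g hg
      have h1 : ∑ i, (∑ j, ((p.2 : GL (Fin k) F) : Matrix (Fin k) (Fin k) F) i j * g j) • (p.1.out).1 (u i) = 0 := by
        rw [← hg]
        simp only [w, Finset.smul_sum, Finset.sum_smul, smul_smul]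
        rw [Finset.sum_comm]
        refine Finset.sum_congr rfl fun j _ => Finset.sum_congr rfl fun i _ => ?_
        rw [mul_comm]
      have h3 := Fintype.linearIndependent_iff.1 (hli p.1) _ h1
      have h4 : ((p.2 : GL (Fin k) F) : Matrix (Fin k) (Fin k) F).mulVec g = 0 := funext h3
      have h5 := Matrix.eq_zero_of_mulVec_eq_zero (by
        have := (p.2 : GL (Fin k) F).isUnit
        rw [Matrix.isUnit_iff_isUnit_det] at this
        exact this.ne_zero) h4
      exact fun i => congrFun h5 i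
    · simp only [w, map_sum, LinearMap.sum_apply, smul_left', smul_right']
      refine Finset.sum_eq_zero fun a _ => Finset.sum_eq_zero fun b _ => ?_
      rw [(Frame.map hu (p.1.out).2).ti]
      ring
  have hsum : ∀ p x, ∑ j, B (w p j) x • w p j = ∑ i, B ((p.1.out).1 (u i)) x • (p.1.out).1 (u i) := by
    intro p x
    have hr := GU_rel hF hσ p.2
    set A : Matrix (Fin k) (Fin k) F := ((p.2 : GL (Fin k) F) : Matrix (Fin k) (Fin k) F) with hA
    have e1 : ∀ j, B (w p j) x • w p j =
        ∑ i, ∑ l, (A l j * σ (A i j)) • (B ((p.1.out).1 (u i)) x • (p.1.out).1 (u l)) := by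
      intro j
      have e0 : B (w p j) x = ∑ i, σ (A i j) * B ((p.1.out).1 (u i)) x := by
        simp only [w, map_sum, LinearMap.sum_apply, smul_left']
        rfl
      rw [e0, Finset.sum_smul]
      refine Finset.sum_congr rfl fun i _ => ?_
      simp only [w, Finset.smul_sum, smul_smul]
      refine Finset.sum_congr rfl fun l _ => ?_
      congr 1
      change _ * A l j = _
      ring
    rw [Finset.sum_congr rfl fun j _ => e1 j, Finset.sum_comm]
    refine Finset.sum_congr rfl fun i _ => ?_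
    rw [Finset.sum_comm]
    have e2 : ∀ l, ∑ j, (A l j * σ (A i j)) • (B ((p.1.out).1 (u i)) x • (p.1.out).1 (u l)) =
        (if i = l then (1 : F) else 0) • (B ((p.1.out).1 (u i)) x • (p.1.out).1 (u l)) := by
      intro l
      rw [← Finset.sum_smul, hr]
    rw [Finset.sum_congr rfl fun l _ => e2 l]
    simp
  have hinj : Function.Injective w := by
    intro p p' h
    have h1 : p.1 = p'.1 := by
      have h3 : (p.1.out) * t * (p.1.out)⁻¹ = (p'.1.out) * t * (p'.1.out)⁻¹ := by
        apply Subtype.ext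
        ext x
        rw [hconj, hconj, ← hsum, ← hsum, h]
      have h4 : (p.1.out)⁻¹ * ((p.1.out) * t * (p.1.out)⁻¹) * (p'.1.out) =
        (p.1.out)⁻¹ * ((p'.1.out) * t * (p'.1.out)⁻¹) * (p'.1.out) := by rw [h3]
      have h5 : (p.1.out)⁻¹ * (p'.1.out) ∈ C := by
        refine Subgroup.mem_centralizer_singleton_iff.2 ?_
        simpa [mul_assoc] using h4.symm
      have h6 := QuotientGroup.eq.2 h5
      rwa [QuotientGroup.out_eq', QuotientGroup.out_eq'] at h6
    obtain ⟨c, a⟩ := p
    obtain ⟨c', a'⟩ := p'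
    obtain rfl : c = c' := h1
    have h5 : ∀ i j, ((a : GL (Fin k) F) : Matrix (Fin k) (Fin k) F) i j = ((a' : GL (Fin k) F) : Matrix (Fin k) (Fin k) F) i j := by
      intro i j
      have h6 : ∑ i, (((a : GL (Fin k) F) : Matrix (Fin k) (Fin k) F) i j - ((a' : GL (Fin k) F) : Matrix (Fin k) (Fin k) F) i j) •
          (c.out).1 (u i) = 0 := by
        simp only [sub_smul, Finset.sum_sub_distrib]
        exact sub_eq_zero.2 (congrFun h j)
      exact sub_eq_zero.1 (Fintype.linearIndependent_iff.1 (hli c) _ h6 i)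
    have h7 : a = a' := Subtype.ext (Units.ext (Matrix.ext h5))
    rw [h7]
  have hle : C.index * Nat.card (Cfsg.GU k F q) ≤ fr B k := by
    rw [Subgroup.index, ← Nat.card_prod, fr]
    exact Nat.card_le_card_of_injective (fun p => (⟨w p, hw p⟩ : {u : Fin k → V // Frame B u}))
      (fun p p' h => hinj (congrArg Subtype.val h))
  have h2k : 2 * k ≤ finrank F V := by
    have h1 := ti_two_mul_le hB (Frame.span_ti hu)
    rw [finrank_span_eq_card hu.li, Fintype.card_fin] at h1
    exact h1
  have h3 := fr_le hF hB k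
  set n := finrank F V with hn
  have h4 : C.index * q ^ k * q ^ (2 * k * k) ≤ (q + 1) ^ k * q ^ (2 * k * (n - k)) * q ^ (2 * k * k) := by
    calc C.index * q ^ k * q ^ (2 * k * k) = C.index * q ^ (k * k) * q ^ (k * k + k) := by ring
      _ ≤ C.index * Nat.card (Cfsg.GU k F q) * q ^ (k * k + k) := by
          gcongr
          exact le_card_GU hF k
      _ ≤ fr B k * q ^ (k * k + k) := by gcongr
      _ ≤ (q + 1) ^ k * q ^ (2 * n * k) := h3
      _ = (q + 1) ^ k * q ^ (2 * k * (n - k)) * q ^ (2 * k * k) := by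
          have e5 : 2 * k * (n - k) + 2 * k * k = 2 * n * k := by
            rw [← mul_add, Nat.sub_add_cancel (by omega)]
            ring
          rw [← e5, pow_add, ← mul_assoc ((q + 1) ^ k)]
  exact Nat.le_of_mul_le_mul_right h4 (by positivity)

end Cfsg.Agent.H847.IF
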