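import Cfsg.Agent.H838.IF.Defs
import Cfsg.Agent.H450.UF.Model
import Cfsg.Agent.ClassicalGeometry.PSUAutBasic
import Cfsg.Agent.CpAut.Fix

/-!
# S5719, `PSU_4(q)`: W0 and the assembly (helper847)

Pieces of helper838's plan `tools/plans/S5719_psu4.md` as hypotheses.
* `pi_eq_one_iff` : the kernel of `pi hF 4`; `HA hF A` : the preimage of `A`; `pk_of_IF` : W0;
* `false_of_comm` : two commuting involutions; `four_of` : the row.
-/

set_option autoImplicit false
set_option linter.unusedSectionVars false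

namespace Cfsg.Agent.H847.IF

open Module Subgroup Cfsg Cfsg.Agent.H91.U Cfsg.Agent.H450.UF Cfsg.Agent.H450.Bs Cfsg.Agent.H209.Fxy
open Cfsg.Agent.H838.IF
open Cfsg.Agent.H77.Witt (formB)

section

variable {F V : Type*} [Field F] [AddCommGroup V] [Module F V] {σ : F →+* F} {B : V →ₛₗ[σ] V →ₗ[F] F}

/-- `Neg` determines the transformation -/
theorem neg_unique [Finite F] [FiniteDimensional F V] (hB : HForm B) {P : Submodule F V} (hP : NP B P)
    {s t : V ≃ₗ[F] V} (hs : Neg B s P) (ht : Neg B t P) : s = t := by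
  ext v
  obtain ⟨a, ha, b, hb, rfl⟩ := exists_decomp hB hP.nd v
  have hb' : b ∈ pp B P := fun w hw => hB.swap_zero (hb w hw)
  rw [map_add, map_add, hs.1 a ha, ht.1 a ha, hs.2 b hb', ht.2 b hb']

/-- `Neg` on orthogonal planes -/
theorem neg_perp [Finite F] [FiniteDimensional F V] (hB : HForm B) {P : Submodule F V} (hP : NP B P)
    {s t : V ≃ₗ[F] V} (hs : Neg B s (pp B P)) (ht : Neg B t P) (v : V) : s v = -t v := by
  obtain ⟨a, ha, b, hb, rfl⟩ := exists_decomp hB hP.nd v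
  have hb' : b ∈ pp B P := fun w hw => hB.swap_zero (hb w hw)
  have ha' : a ∈ pp B (pp B P) := fun w hw => hB.swap_zero (hw a ha)
  rw [map_add, map_add, hs.1 b hb', ht.1 a ha, hs.2 a ha', ht.2 b hb', neg_add, neg_neg]

/-- **two commuting involutions** (modulo scalars) -/
theorem false_of_comm [Finite F] [FiniteDimensional F V] (hB : HForm B) (hV : finrank F V = 4) {q : ℕ}
    {H : Subgroup (V ≃ₗ[F] V)} (hH : Pk B H)
    (types : ∀ t ∈ SIso B, ¬ Scal t → Scal (t * t) →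
      (∃ (P : Submodule F V) (s : V ≃ₗ[F] V) (a : F), NP B P ∧ Neg B s P ∧ s ∈ SIso B ∧ (∀ v, t v = a • s v)) ∨
      (∃ (v : V) (m : F), B v v ≠ 0 ∧ m ≠ 0 ∧ t v = -(m • v) ∧ ∀ u, B v u = 0 → t u = m • u) ∨
      (∃ m : F, m ^ (q + 1) = -1 ∧ ∀ v, t (t v) = (m * m) • v))
    (no_second : ∀ t ∈ H, ∀ m : F, m ^ (q + 1) = -1 → (∀ v, t (t v) = (m * m) • v) → False)
    (no_refl : ∀ t ∈ H, ∀ v : V, B v v ≠ 0 → ∀ m : F, m ≠ 0 → t v = -(m • v) →
      (∀ u, B v u = 0 → t u = m • u) → False)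
    (no_comm : ∀ P Q : Submodule F V, NP B P → NP B Q → ∀ s t : V ≃ₗ[F] V, Neg B s P → Neg B t Q → s ∈ H → t ∈ H →
      P ≠ Q → P ≠ pp B Q → Comm s t → False)
    {s t : V ≃ₗ[F] V} (hs : s ∈ H) (ht : t ∈ H) (hs1 : ¬ Scal s) (ht1 : ¬ Scal t) (hs2 : Scal (s * s))
    (ht2 : Scal (t * t)) (hst : ¬ Scal (s * t⁻¹)) (hc : Comm s t) : False := by
  have hnt : Nontrivial V := Module.nontrivial_of_finrank_pos (R := F) (by omega)
  obtain ⟨v0, hv0⟩ := exists_ne (0 : V)
  have first : ∀ s ∈ H, ¬ Scal s → Scal (s * s) → ∃ (P : Submodule F V) (s0 : V ≃ₗ[F] V) (a : F), NP B P ∧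
      Neg B s0 P ∧ s0 ∈ H ∧ a ≠ 0 ∧ ∀ v, s v = a • s0 v := by
    intro s hs hs1 hs2
    rcases types s (hH.le hs) hs1 hs2 with ⟨P, s0, a, hP, hN, h0, h⟩ | ⟨v, m, h1, h2, h3, h4⟩ | ⟨m, h1, h2⟩
    · have ha : a ≠ 0 := by
        rintro rfl
        have h1 := h v0
        rw [zero_smul, LinearEquiv.map_eq_zero_iff] at h1
        exact hv0 h1
      refine ⟨P, s0, a, hP, hN, ?_, ha, h⟩
      have hz : s0 * s⁻¹ ∈ H := by
        refine hH.sc _ ((SIso B).mul_mem h0 ((SIso B).inv_mem (hH.le hs))) ⟨a⁻¹, fun v => ?_⟩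
        have h1 : s (s⁻¹ v) = v := by
          rw [← LinearEquiv.mul_apply, mul_inv_cancel]
          rfl
        rw [h] at h1
        rw [LinearEquiv.mul_apply, eq_inv_smul_iff₀ ha, h1]
      have h2 := H.mul_mem hz hs
      rwa [inv_mul_cancel_right] at h2
    · exact (no_refl s hs v h1 m h2 h3 h4).elim
    · exact (no_second s hs m h1 h2).elim
  obtain ⟨P, s0, a, hP, hN, hs0, ha, hsa⟩ := first s hs hs1 hs2
  obtain ⟨Q, t0, b, hQ, hM, ht0, hb, htb⟩ := first t ht ht1 ht2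
  have key : ∀ v, t (t⁻¹ v) = v := fun v => by
    rw [← LinearEquiv.mul_apply, mul_inv_cancel]
    rfl
  refine no_comm P Q hP hQ s0 t0 hN hM hs0 ht0 ?_ ?_ ?_
  · rintro rfl
    have h0 := neg_unique hB hP hN hM
    subst h0
    refine hst ⟨a * b⁻¹, fun v => ?_⟩
    have h1 := key v
    rw [htb] at h1
    rw [LinearEquiv.mul_apply, hsa, mul_smul, ← h1, smul_smul b⁻¹, inv_mul_cancel₀ hb, one_smul]
    congr 2
    rw [h1]
  · rintro rfl
    refine hst ⟨-(a * b⁻¹), fun v => ?_⟩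
    have h1 := key v
    rw [htb] at h1
    rw [LinearEquiv.mul_apply, hsa, neg_perp hB hQ hN hM, neg_smul, mul_smul, smul_neg]
    congr 2
    rw [eq_inv_smul_iff₀ hb]
    exact h1
  · obtain ⟨c, hc⟩ := hc
    refine ⟨c, fun v => ?_⟩
    have h1 := hc v
    rw [hsa, htb, htb, hsa, map_smul, map_smul, smul_smul, smul_smul, smul_smul] at h1
    have h2 : (a * b) • s0 (t0 v) = (a * b) • (c • t0 (s0 v)) := by
      rw [h1, smul_smul]
      congr 1
      ring
    exact smul_right_injective V (mul_ne_zero ha hb) h2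

/-- the number of conjugates -/
theorem index_le_cls [Finite F] [FiniteDimensional F V] (t : SIso B) :
    (centralizer ({t} : Set (SIso B))).index ≤ cls B t.1 := by
  classical
  have : Finite V := Module.finite_of_finite F
  have hf : Finite (V ≃ₗ[F] V) := by
    refine Finite.of_injective (fun g : V ≃ₗ[F] V => (g : V → V)) ?_
    intro a b hab
    exact DFunLike.coe_injective hab
  rw [Subgroup.index, cls, ← Nat.card_coe_set_eq]
  refine Nat.card_le_card_of_injective (Quotient.lift (fun g : SIso B =>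
    (⟨g.1 * t.1 * g.1⁻¹, g.1, g.2, rfl⟩ : {s : V ≃ₗ[F] V | ∃ g ∈ SIso B, s = g * t.1 * g⁻¹})) ?_) ?_
  · intro a b hab
    have h1 : a⁻¹ * b ∈ centralizer ({t} : Set (SIso B)) := QuotientGroup.leftRel_apply.1 hab
    rw [mem_centralizer_iff] at h1
    have h2 := h1 t rfl
    apply Subtype.ext
    change (a * t * a⁻¹).1 = (b * t * b⁻¹).1
    congr 1
    have h3 : a * t * a⁻¹ = a * (t * (a⁻¹ * b)) * b⁻¹ := by group
    rw [h3, h2]
    group
  · intro x y
    induction x using QuotientGroup.induction_on with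
    | H a =>
      induction y using QuotientGroup.induction_on with
      | H b =>
        intro hab
        have h1 : (⟨a.1 * t.1 * a.1⁻¹, a.1, a.2, rfl⟩ : {s : V ≃ₗ[F] V | ∃ g ∈ SIso B, s = g * t.1 * g⁻¹}) =
          ⟨b.1 * t.1 * b.1⁻¹, b.1, b.2, rfl⟩ := hab
        have h2' : a.1 * t.1 * a.1⁻¹ = b.1 * t.1 * b.1⁻¹ := congrArg Subtype.val h1
        have h2 : a * t * a⁻¹ = b * t * b⁻¹ := Subtype.ext h2'
        rw [QuotientGroup.eq, mem_centralizer_iff]
        intro u hu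
        have hu' : u = t := hu
        rw [hu']
        have h3 : t = a⁻¹ * (b * t * b⁻¹) * a := by rw [← h2]; group
        calc t * (a⁻¹ * b) = (a⁻¹ * (b * t * b⁻¹) * a) * (a⁻¹ * b) := by rw [← h3]
          _ = a⁻¹ * b * t := by group

end

section

variable {F : Type*} [Field F] [Fintype F] {q : ℕ}

/-- the kernel of the projection: the scalars -/
theorem pi_eq_one_iff (hF : Fintype.card F = q ^ 2) {n : ℕ} (hn : 3 ≤ n) (g : SIso (formB hF n)) :
    pi hF n g = 1 ↔ Scal g.1 := by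
  obtain ⟨x, rfl⟩ := (toIso (n := n) hF).surjective g
  rw [pi_toIso, QuotientGroup.mk'_apply, QuotientGroup.eq_one_iff]
  constructor
  · intro h
    obtain ⟨c, -, -, hc⟩ := Cfsg.Agent.ClassicalGeometry.PSUAutBasic.exists_scalar_of_mem_center hF hn h
    exact ⟨c, fun v => by rw [toIso_apply]; exact hc v⟩
  · rintro ⟨a, ha⟩
    exact Cfsg.Agent.ClassicalGeometry.PSUAutBasic.mem_center_of_act (c := a) fun v => by
      rw [← toIso_apply hF]
      exact ha v

/-- the preimage of `A` -/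
noncomputable def HA (hF : Fintype.card F = q ^ 2) (A : Subgroup (PSU 4 F q)) :
    Subgroup ((Fin 4 → F) ≃ₗ[F] (Fin 4 → F)) :=
  (A.comap (pi hF 4)).map (SIso (formB hF 4)).subtype

theorem mem_HA (hF : Fintype.card F = q ^ 2) (A : Subgroup (PSU 4 F q)) (g : SIso (formB hF 4)) :
    g.1 ∈ HA hF A ↔ pi hF 4 g ∈ A := by
  constructor
  · rintro ⟨x, hx, hxg⟩
    have h1 : x = g := Subtype.ext hxg
    rw [← h1]
    exact hx
  · intro h
    exact ⟨g, h, rfl⟩

/-- **W0**: the package of properties of the preimage of `A` -/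
theorem pk_of_IF (hF : Fintype.card F = q ^ 2) [hs : IsSimpleGroup (PSU 4 F q)] {A : Subgroup (PSU 4 F q)}
    {Γ : Subgroup (MulAut (PSU 4 F q))} (h : IF A Γ) : Pk (formB hF 4) (HA hF A) := by
  have hfin : Finite (PSU 4 F q) := Quotient.finite _
  have hna : ∃ a b : PSU 4 F q, a * b ≠ b * a := by
    by_contra hcon
    push Not at hcon
    exact Cfsg.Agent.CpAut.Fix.not_comm_quot (H := SU 4 F q) (hs := hs) ⟨⟨hcon⟩⟩
  refine ⟨?_, ?_, ?_, ?_⟩
  · rintro _ ⟨x, -, rfl⟩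
    exact x.2
  · intro hle
    apply h.ne_top
    rw [eq_top_iff]
    intro x _
    obtain ⟨g, rfl⟩ := pi_surjective hF 4 x
    exact (mem_HA hF A g).1 (hle g.2)
  · intro g hg hsc
    have h1 : pi hF 4 ⟨g, hg⟩ = 1 := (pi_eq_one_iff hF (by norm_num) _).2 hsc
    have h2 := (mem_HA hF A ⟨g, hg⟩).2 (by rw [h1]; exact A.one_mem)
    exact h2
  · rintro t htH ht1 ht2 K hK hKc
    obtain ⟨t, htA, rfl⟩ := htH
    change ¬ Scal t.1 at ht1
    change Scal (t * t).1 at ht2
    have hfG : Finite (SIso (formB hF 4)) := Finite.of_equiv _ (toIso (n := 4) hF).toEquiv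
    have h5 := lift_E2 h hna (pi hF 4) (pi_surjective hF 4) (t := t) htA
      (fun h1 => ht1 ((pi_eq_one_iff hF (by norm_num) _).1 h1)) ((pi_eq_one_iff hF (by norm_num) _).2 ht2)
      (B := K.subgroupOf (SIso (formB hF 4))) (by
        intro b hb
        obtain ⟨a, ha⟩ := hKc b.1 hb
        have h6 : pi hF 4 ((b * t) * (t * b)⁻¹) = 1 := by
          rw [pi_eq_one_iff hF (by norm_num)]
          refine ⟨a, fun v => ?_⟩
          have h7 := ha ((t * b)⁻¹.1 v)
          have h8 : (t * b).1 ((t * b)⁻¹.1 v) = v := by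
            have h9 : (t * b).1 * (t * b)⁻¹.1 = 1 := congrArg Subtype.val (mul_inv_cancel (t * b))
            exact LinearEquiv.congr_fun h9 v
          have h10 : t.1 (b.1 ((t * b)⁻¹.1 v)) = v := h8
          have h7' : b.1 (t.1 ((t * b)⁻¹.1 v)) = a • t.1 (b.1 ((t * b)⁻¹.1 v)) := h7
          rw [h10] at h7'
          exact h7'
        rw [map_mul, map_inv, mul_inv_eq_one] at h6
        exact h6)
    have h11 : (HA hF A).relIndex K = (A.comap (pi hF 4)).relIndex (K.subgroupOf (SIso (formB hF 4))) := by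
      have h12 : ((K.subgroupOf (SIso (formB hF 4))).map (SIso (formB hF 4)).subtype) = K := by
        rw [Subgroup.subgroupOf_map_subtype]
        exact inf_eq_left.2 hK
      have h13 : ((HA hF A).comap (SIso (formB hF 4)).subtype) = A.comap (pi hF 4) := by
        rw [HA, comap_map_eq_self_of_injective (SIso (formB hF 4)).subtype_injective]
      rw [← h13, relIndex_comap, h12]
    rw [h11]
    exact lt_of_lt_of_le h5 (index_le_cls t)

/-- **The assembly**, `q` odd, `q ≥ 5`. -/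
theorem killE_odd (hF : Fintype.card F = q ^ 2) [hs : IsSimpleGroup (PSU 4 F q)]
    (stepC : ∀ H : Subgroup ((Fin 4 → F) ≃ₗ[F] (Fin 4 → F)), Pk (formB hF 4) H → StepC (formB hF 4) H)
    (no_second : ∀ H : Subgroup ((Fin 4 → F) ≃ₗ[F] (Fin 4 → F)), Pk (formB hF 4) H → StepC (formB hF 4) H →
      ∀ t ∈ H, ∀ m : F, m ^ (q + 1) = -1 → (∀ v, t (t v) = (m * m) • v) → False)
    (no_refl : ∀ H : Subgroup ((Fin 4 → F) ≃ₗ[F] (Fin 4 → F)), Pk (formB hF 4) H →
      ∀ t ∈ H, ∀ v : Fin 4 → F, formB hF 4 v v ≠ 0 → ∀ m : F, m ≠ 0 → t v = -(m • v) →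
      (∀ u, formB hF 4 v u = 0 → t u = m • u) → False)
    (types : ∀ t ∈ SIso (formB hF 4), ¬ Scal t → Scal (t * t) →
      (∃ (P : Submodule F (Fin 4 → F)) (s : (Fin 4 → F) ≃ₗ[F] (Fin 4 → F)) (a : F), NP (formB hF 4) P ∧
        Neg (formB hF 4) s P ∧ s ∈ SIso (formB hF 4) ∧ (∀ v, t v = a • s v)) ∨
      (∃ (v : Fin 4 → F) (m : F), formB hF 4 v v ≠ 0 ∧ m ≠ 0 ∧ t v = -(m • v) ∧
        ∀ u, formB hF 4 v u = 0 → t u = m • u) ∨
      (∃ m : F, m ^ (q + 1) = -1 ∧ ∀ v, t (t v) = (m * m) • v))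
    (no_comm : ∀ H : Subgroup ((Fin 4 → F) ≃ₗ[F] (Fin 4 → F)), Pk (formB hF 4) H → StepC (formB hF 4) H →
      ∀ P Q : Submodule F (Fin 4 → F), NP (formB hF 4) P → NP (formB hF 4) Q →
      ∀ s t : (Fin 4 → F) ≃ₗ[F] (Fin 4 → F), Neg (formB hF 4) s P → Neg (formB hF 4) t Q → s ∈ H → t ∈ H →
      P ≠ Q → P ≠ pp (formB hF 4) Q → Comm s t → False)
    (rank_one : ∀ (A : Subgroup (PSU 4 F q)) (Γ : Subgroup (MulAut (PSU 4 F q))), IF A Γ → Even (Nat.card A) →
      StepC (formB hF 4) (HA hF A) →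
      (∀ s ∈ A, ∀ t ∈ A, orderOf s = 2 → orderOf t = 2 → s * t = t * s → s = t) → False) :
    KillE (PSU 4 F q) := by
  rintro A Γ h ⟨t0, ht0A, ht0⟩
  have hfin : Finite (PSU 4 F q) := Quotient.finite _
  have hPk := pk_of_IF hF h
  have hC := stepC _ hPk
  have hev : Even (Nat.card A) := by
    rw [even_iff_two_dvd, ← ht0]
    have h1 := orderOf_dvd_natCard (⟨t0, ht0A⟩ : A)
    rwa [← Subgroup.orderOf_coe] at h1
  refine rank_one A Γ h hev hC ?_
  intro s hsA t htA hs2 ht2 hcom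
  by_contra hst
  have lift : ∀ s ∈ A, orderOf s = 2 → ∃ x : SIso (formB hF 4), pi hF 4 x = s ∧ x.1 ∈ HA hF A ∧ ¬ Scal x.1 ∧
      Scal (x.1 * x.1) := by
    intro s hsA hs2
    obtain ⟨x, rfl⟩ := pi_surjective hF 4 s
    refine ⟨x, rfl, (mem_HA hF A x).2 hsA, ?_, ?_⟩
    · intro h1
      rw [← pi_eq_one_iff hF (by norm_num)] at h1
      rw [h1, orderOf_one] at hs2
      omega
    · have h1 : pi hF 4 (x * x) = 1 := by
        rw [map_mul, ← pow_two]
        exact hs2 ▸ pow_orderOf_eq_one _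
      exact (pi_eq_one_iff hF (by norm_num) _).1 h1
  obtain ⟨x, hx, hxH, hx1, hx2⟩ := lift s hsA hs2
  obtain ⟨y, hy, hyH, hy1, hy2⟩ := lift t htA ht2
  refine false_of_comm (q := q) (hform hF 4) (by rw [finrank_fin_fun]) hPk types
    (fun t ht m h1 h2 => no_second _ hPk hC t ht m h1 h2)
    (fun t ht v h1 m h2 h3 h4 => no_refl _ hPk t ht v h1 m h2 h3 h4)
    (fun P Q h1 h2 s t h3 h4 h5 h6 h7 h8 h9 => no_comm _ hPk hC P Q h1 h2 s t h3 h4 h5 h6 h7 h8 h9)
    hxH hyH hx1 hy1 hx2 hy2 ?_ ?_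
  · intro h1
    apply hst
    have h2 : pi hF 4 (x * y⁻¹) = 1 := (pi_eq_one_iff hF (by norm_num) _).2 h1
    rw [map_mul, map_inv, mul_inv_eq_one, hx, hy] at h2
    exact h2
  · have h2 : pi hF 4 ((x * y) * (y * x)⁻¹) = 1 := by
      rw [map_mul, map_inv, mul_inv_eq_one, map_mul, map_mul, hx, hy, hcom]
    obtain ⟨a, ha⟩ := (pi_eq_one_iff hF (by norm_num) _).1 h2
    refine ⟨a, fun v => ?_⟩
    have h3 := ha ((y * x).1 v)
    have h4 : ((x * y) * (y * x)⁻¹).1 ((y * x).1 v) = (x * y).1 v := by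
      have h5 : ((x * y) * (y * x)⁻¹) * (y * x) = x * y := inv_mul_cancel_right _ _
      exact LinearEquiv.congr_fun (congrArg Subtype.val h5) v
    rw [h4] at h3
    exact h3

end

/-- the cell `CellsPSU.four` from its three parts -/
theorem four_of
    (h3 : ∀ (F : Type) [Field F] [Fintype F], Fintype.card F = 3 ^ 2 → IsSimpleGroup (PSU 4 F 3) → KillE (PSU 4 F 3))
    (heven : ∀ (F : Type) [Field F] [Fintype F] (q : ℕ), Fintype.card F = q ^ 2 → Even q →
      IsSimpleGroup (PSU 4 F q) → KillE (PSU 4 F q))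
    (hodd : ∀ (F : Type) [Field F] [Fintype F] (q : ℕ), Fintype.card F = q ^ 2 → Odd q → 5 ≤ q →
      IsSimpleGroup (PSU 4 F q) → KillE (PSU 4 F q)) :
    ∀ (F : Type) [Field F] [Fintype F] (q : ℕ), Fintype.card F = q ^ 2 → IsSimpleGroup (PSU 4 F q) →
      KillE (PSU 4 F q) := by
  intro F _ _ q hF hs
  rcases Nat.even_or_odd q with he | ho
  · exact heven F q hF he hs
  · by_cases h5 : 5 ≤ q
    · exact hodd F q hF ho h5 hs
    · have h1 : q ≠ 1 := by
        rintro rfl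
        have := Fintype.one_lt_card (α := F)
        omega
      obtain ⟨j, rfl⟩ := ho
      have hj : j = 1 := by omega
      subst hj
      exact h3 F hF hs

end Cfsg.Agent.H847.IF
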